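import Cfsg.Agent.H10.Xsp6

/-! Singular subgroups for a large extraspecial subgroup. -/

set_option autoImplicit false

namespace Cfsg.Agent.LL

open Cfsg Cfsg.Agent.H10 Subgroup

variable {G : Type*} [Group G]

theorem xs_tv [Finite G] {Q K : Subgroup G} {u x : G} (h : XS Q u) (hK : K ≤ Q) (hu : u ∈ K) (hx : x ∈ Q)
    (hxK : x ∉ K) : ∃ q ∈ Q, (∀ k ∈ K, q * k = k * q) ∧ q * x * q⁻¹ = u * x := by
  by_contra! hn
  refine hxK (sup_eq_left.mpr (zpowers_le.mpr hu) ▸ h.dc' hK ⟨hx, fun q hq => ?_⟩)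
  by_contra e
  exact hn q hq.1 (fun k hk => (hq.2 k hk).symm) (h.conj_eq_of_ne hq.1 hx e)

/-- a subgroup of pairwise orthogonal singular involutions -/
structure SS (Q : G → Subgroup G) (U : Subgroup G) : Prop where
  cj : ∀ g x y, y ∈ Q x → g * y * g⁻¹ ∈ Q (g * x * g⁻¹)
  sq : ∀ u ∈ U, u * u = 1
  lx : ∀ u ∈ U, u ≠ 1 → LX (Q u) u
  le : ∀ u ∈ U, u ≠ 1 → U ≤ Q u

theorem lx_opOf [Finite G] {Q : G → Subgroup G} (hQ : ∀ x, Q x = OpOf 2 (centralizer {x})) {z : G}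
    (hz : orderOf z = 2) (hE : IsExtraspecial 2 (Q z)) (hC : centralizer (Q z : Set G) ≤ Q z) : LX (Q z) z := by
  have h1 : ∀ q ∈ Q z, q * z = z * q := fun q hq => mem_centralizer_singleton_iff.mp (OpOf_le (hQ z ▸ hq))
  have h2 := xs_of_isExtraspecial hE (fun e => by simp [e] at hz) (hC h1) h1
  exact { h2 with
    cQ := fun c hc => h2.zc c (hC hc) hc
    nQ := by rw [hQ]; exact le_normalizer_OpOf le_normalizer }

theorem conj_opOf {Q : G → Subgroup G} (hQ : ∀ x, Q x = OpOf 2 (centralizer {x})) (g x : G) :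
    (Q x).map (MulAut.conj g).toMonoidHom = Q (g * x * g⁻¹) := by
  rw [hQ, hQ, conj_OpOf]
  congr 1
  ext y
  simp only [mem_map, mem_centralizer_singleton_iff]
  refine ⟨?_, fun h => ⟨g⁻¹ * y * g, ?_, by simp [mul_assoc]⟩⟩
  · rintro ⟨w, h, rfl⟩
    simp [mul_assoc]; simp [← mul_assoc, h]
  · calc _ = g⁻¹ * (y * (g * x * g⁻¹)) * g := by group
      _ = _ := by rw [h]; group

theorem ss_of [Finite G] {Q : G → Subgroup G} (hQ : ∀ x, Q x = OpOf 2 (centralizer {x})) {z : G}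
    (hz : orderOf z = 2) (hE : IsExtraspecial 2 (Q z)) (hC : centralizer (Q z : Set G) ≤ Q z) {U : Subgroup G}
    (hU2 : ∀ u ∈ U, u * u = 1) (hS : ∀ u ∈ U, u ≠ 1 → ∃ g : G, g * z * g⁻¹ = u)
    (hO : ∀ u ∈ U, ∀ v ∈ U, u ≠ 1 → v ≠ 1 → v ∈ Q u) : SS Q U where
  cj g x y hy := conj_opOf hQ g x ▸ mem_map_of_mem _ hy
  sq := hU2
  lx u hu h1 := by
    obtain ⟨g, rfl⟩ := hS u hu h1
    exact conj_opOf hQ g z ▸ (lx_opOf hQ hz hE hC).conj g
  le u hu h1 v hv := by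
    by_cases e : v = 1
    exacts [e ▸ one_mem _, hO u hu v hv h1 e]

namespace SS

variable {Q : G → Subgroup G} {U : Subgroup G} (h : SS Q U)
include h

theorem inv {u : G} (hu : u ∈ U) : u⁻¹ = u := inv_eq_of_mul_eq_one_left (h.sq u hu)

theorem comm {u v : G} (hu : u ∈ U) (hv : v ∈ U) : u * v = v * u := by
  rw [← h.inv (mul_mem hu hv), mul_inv_rev, h.inv hu, h.inv hv]

theorem le_norm {u : G} (hu : u ∈ U) (h1 : u ≠ 1) : Q u ≤ normalizer (U : Set G) :=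
  (h.lx u hu h1).le_normalizer_of_mem (h.le u hu h1) hu

theorem sup_le : ⨆ u ∈ (U : Set G) \ {1}, Q u ≤ normalizer (U : Set G) :=
  iSup₂_le fun _ hu => h.le_norm hu.1 hu.2

theorem mem_mul {a b x : G} (ha : a ∈ U) (hb : b ∈ U) (a1 : a ≠ 1) (b1 : b ≠ 1) (hab : a * b ≠ 1) (xa : x ∈ Q a)
    (xb : x ∈ Q b) : x ∈ Q (a * b) := by
  have hl := h.lx a ha a1
  obtain ⟨q, hq, e⟩ := hl.exists_ne_comm (h.le a ha a1 hb) fun hh => by
    rcases hl.mem_z.mp hh with e | e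
    exacts [b1 e, hab (e ▸ h.sq b hb)]
  have h2 := h.cj q b x xb
  rw [hl.conj_eq_of_ne hq (h.le a ha a1 hb) e] at h2
  by_cases e' : q * x = x * q
  · rwa [e', mul_inv_cancel_right] at h2
  · rw [hl.conj_eq_of_ne hq xa e'] at h2
    exact (mul_mem_cancel_left (h.le _ (mul_mem ha hb) hab ha)).mp h2

theorem inf_eq {T : Set G} (hT : closure T = U) (hT1 : (1 : G) ∉ T) :
    ⨅ u ∈ (U : Set G) \ {1}, Q u = ⨅ t ∈ T, Q t := by
  refine le_antisymm (le_iInf₂ fun t ht => iInf₂_le t ⟨hT ▸ subset_closure ht, fun e => hT1 (e ▸ ht)⟩) fun x hx => ?_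
  simp only [mem_iInf] at hx ⊢
  rintro u ⟨hu, h1⟩
  revert h1
  subst hT
  induction hu using closure_induction with
  | mem t ht => exact fun _ => hx t ht
  | one => exact fun e => (e rfl).elim
  | mul a b ha hb ia ib =>
    intro e
    by_cases a1 : a = 1
    · subst a1; rw [one_mul] at e ⊢; exact ib e
    by_cases b1 : b = 1
    · subst b1; rw [mul_one] at e ⊢; exact ia e
    exact h.mem_mul ha hb a1 b1 e (ia a1) (ib b1)
  | inv a ha ia => rwa [h.inv ha]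

theorem comm_mem {g x : G} (hg : g ∈ ⨆ u ∈ (U : Set G) \ {1}, Q u) (hx : x ∈ ⨅ u ∈ (U : Set G) \ {1}, Q u) :
    g * x * g⁻¹ * x⁻¹ ∈ U := by
  let H : Subgroup G :=
    { carrier := {g | g ∈ normalizer (U : Set G) ∧ g * x * g⁻¹ * x⁻¹ ∈ U}
      one_mem' := ⟨one_mem _, by simp⟩
      mul_mem' := fun {a b} ha hb => ⟨mul_mem ha.1 hb.1, by
        have := mul_mem ((mem_normalizer_iff.mp ha.1 _).mp hb.2) ha.2
        convert this using 1; group⟩
      inv_mem' := fun {a} ha => ⟨inv_mem ha.1, by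
        have := (mem_normalizer_iff.mp (inv_mem ha.1) _).mp (inv_mem ha.2)
        convert this using 1; group⟩ }
  refine (iSup₂_le (a := H) (fun u hu q hq => ⟨h.le_norm hu.1 hu.2 hq, ?_⟩) hg).2
  exact zpowers_le.mpr hu.1 ((h.lx u hu.1 hu.2).comm_mem hq (mem_iInf.mp (mem_iInf.mp hx u) hu))

theorem trans [Finite G] {x u : G} (hx : x ∈ ⨅ u ∈ (U : Set G) \ {1}, Q u) (hxU : x ∉ U) (hu : u ∈ U) :
    ∃ g ∈ (⨆ u ∈ (U : Set G) \ {1}, Q u) ⊓ centralizer (U : Set G), g * x * g⁻¹ = x * u := by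
  by_cases h1 : u = 1
  · exact ⟨1, one_mem _, by simp [h1]⟩
  have h2 : x ∈ Q u := mem_iInf.mp (mem_iInf.mp hx u) ⟨hu, h1⟩
  obtain ⟨q, hq, e1, e2⟩ := xs_tv (h.lx u hu h1).toXS (h.le u hu h1) hu h2 hxU
  exact ⟨q, ⟨le_iSup₂ (f := fun u (_ : u ∈ (U : Set G) \ {1}) => Q u) u ⟨hu, h1⟩ hq, fun k hk => (e1 k hk).symm⟩,
    e2.trans ((h.lx u hu h1).cent x h2).symm⟩

theorem exists_conj [Finite G] (k : ℕ) {f : G → G} (h1 : ∀ u ∈ U, f u ∈ U) (h2 : ∀ u ∈ U, ∀ v ∈ U, f (u * v) = f u * f v)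
    (h3 : Set.InjOn f U) (hk : {u | u ∈ U ∧ f u ≠ u}.ncard ≤ k) :
    ∃ g ∈ ⨆ u ∈ (U : Set G) \ {1}, Q u, ∀ u ∈ U, g * u * g⁻¹ = f u := by
  induction k generalizing f with
  | zero =>
    refine ⟨1, one_mem _, fun u hu => ?_⟩
    by_contra e
    have : u ∈ {u | u ∈ U ∧ f u ≠ u} := ⟨hu, fun e' => e (by simp [e'])⟩
    rw [(Set.ncard_eq_zero (Set.toFinite _)).mp (Nat.le_zero.mp hk)] at this
    exact this
  | succ k ih =>
    by_cases h0 : ∀ u ∈ U, f u = u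
    · exact ⟨1, one_mem _, fun u hu => by simp [h0 u hu]⟩
    push Not at h0
    obtain ⟨x, hx, e⟩ := h0
    have hy := h1 x hx
    have hu := mul_mem hx hy
    have u1 : x * f x ≠ 1 := fun e' => e ((eq_inv_of_mul_eq_one_right e').trans (h.inv hx))
    let K : Subgroup G :=
      { carrier := {w | w ∈ U ∧ (f w = w ∨ f (x * f x * w) = x * f x * w)}
        one_mem' := ⟨one_mem _, Or.inl (by simpa using h2 1 (one_mem _) 1 (one_mem _))⟩
        mul_mem' := fun {a b} ha hb => ⟨mul_mem ha.1 hb.1, by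
          have e1 : x * f x * (a * b) = x * f x * a * b := by group
          have e2 : x * f x * (a * b) = a * (x * f x * b) := by rw [e1, h.comm hu ha.1]; group
          have e3 : a * b = x * f x * a * (x * f x * b) := by
            rw [h.comm hu ha.1, mul_assoc a, ← mul_assoc (x * f x), h.sq _ hu, one_mul]
          rcases ha.2 with ea | ea <;> rcases hb.2 with eb | eb
          · exact Or.inl (by rw [h2 a ha.1 b hb.1, ea, eb])
          · exact Or.inr (by rw [e2, h2 a ha.1 _ (mul_mem hu hb.1), ea, eb])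
          · exact Or.inr (by rw [e1, h2 _ (mul_mem hu ha.1) b hb.1, ea, eb])
          · exact Or.inl (by rw [e3, h2 _ (mul_mem hu ha.1) _ (mul_mem hu hb.1), ea, eb])⟩
        inv_mem' := fun {a} ha => by rwa [h.inv ha.1] }
    obtain ⟨q, hq, e1, e2⟩ := xs_tv (K := K) (h.lx _ hu u1).toXS (fun w hw => h.le _ hu u1 hw.1)
      ⟨hu, Or.inr (by rw [h.sq _ hu]; exact K.one_mem.2.elim id fun _ => by simpa using h2 1 (one_mem _) 1 (one_mem _))⟩
      (h.le _ hu u1 hy) fun hh => by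
        rcases hh.2 with e' | e'
        · exact e (h3 hy hx e')
        · rw [mul_assoc, h.sq _ hy, mul_one] at e'; exact e e'
    rw [mul_assoc x, h.sq _ hy, mul_one] at e2
    have hqL := le_iSup₂ (f := fun u (_ : u ∈ (U : Set G) \ {1}) => Q u) _ ⟨hu, u1⟩ hq
    obtain ⟨g, hg, e3⟩ := ih (f := fun w => q * f w * q⁻¹)
      (fun w hw => (mem_normalizer_iff.mp (h.le_norm hu u1 hq) _).mp (h1 w hw))
      (fun a ha b hb => by rw [h2 a ha b hb]; group) (fun a ha b hb e' => h3 ha hb (by simpa using e'))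
      (by
        refine Nat.le_of_lt_succ (lt_of_lt_of_le (Set.ncard_lt_ncard ?_) hk)
        refine ⟨fun w hw => ⟨hw.1, fun e' => hw.2 ?_⟩, fun hh => (hh ⟨hx, e⟩).2 e2⟩
        rw [e', e1 w ⟨hw.1, Or.inl e'⟩, mul_inv_cancel_right])
    refine ⟨q⁻¹ * g, mul_mem (inv_mem hqL) hg, fun u hu => ?_⟩
    calc _ = q⁻¹ * (g * u * g⁻¹) * q := by group
      _ = _ := by rw [e3 u hu]; group

theorem exists_aut [Finite G] (φ : U ≃* U) :
    ∃ g ∈ ⨆ u ∈ (U : Set G) \ {1}, Q u, ∀ u : U, g * u * g⁻¹ = φ u := by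
  classical
  obtain ⟨g, hg, e⟩ := h.exists_conj _ (f := fun x => if hx : x ∈ U then φ ⟨x, hx⟩ else 1)
    (fun u hu => by simp [hu]) (fun u hu v hv => by
      simp only [hu, hv, mul_mem hu hv, dif_pos, ← coe_mul, ← map_mul]; rfl)
    (fun u hu v hv e => by
      have hu : u ∈ U := hu
      have hv : v ∈ U := hv
      simpa [hu, hv] using e) le_rfl
  exact ⟨g, hg, fun u => by simpa using e u u.2⟩

end SS

end Cfsg.Agent.LL
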